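import Groth.Agent.Sga2lef.H78.LeffMain
import Groth.Agent.Divis.IdealComap
import Groth.Agent.S2948

/-!
# `Pic U → Pic Y_n` for the closed subscheme `Y_n = V((𝓘|_U)^(n+1))` of an open `U ⊇ V(𝓘)`

* `exists_comap_iso` / `exists_sub_iso` : `V((𝓘|_U)^(n+1)) ≅ V(𝓘^(n+1))` over `X` for `U ⊇ V(𝓘)`.
* `pic_pullback_injective` : trivial kernel of `Pic U → Pic Y_n` (from `S2948`).
* `pic_pullback_surjective` : surjectivity of `Pic U → Pic Y_n` from that of `Pic X → Pic Y_n`.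

Author: helper79
-/

set_option autoImplicit false

universe u

open CategoryTheory CategoryTheory.Limits AlgebraicGeometry TopologicalSpace

namespace Groth.Agent.Sga2lef.H79.PicSub

variable {X : Scheme.{u}}

/-- The closed subscheme `V(𝓙)` does not change when `X` is replaced by an open `U` containing it. -/
theorem exists_comap_iso (𝓙 : X.IdealSheafData) (U : X.Opens) (hU : (𝓙.support : Set X) ⊆ (U : Set X)) :
    ∃ g : (𝓙.comap U.ι).subscheme ⟶ 𝓙.subscheme, IsIso g ∧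
      g ≫ 𝓙.subschemeι = (𝓙.comap U.ι).subschemeι ≫ U.ι := by
  have hr : Set.range 𝓙.subschemeι ⊆ Set.range U.ι := by
    rw [Scheme.IdealSheafData.range_subschemeι, Scheme.Opens.range_ι]
    exact hU
  let k : 𝓙.subscheme ⟶ U := IsOpenImmersion.lift U.ι 𝓙.subschemeι hr
  have hk : k ≫ U.ι = 𝓙.subschemeι := IsOpenImmersion.lift_fac _ _ _
  have hsnd : IsIso (pullback.snd U.ι 𝓙.subschemeι) := by
    refine ⟨pullback.lift k (𝟙 _) (by rw [hk, Category.id_comp]), ?_, pullback.lift_snd _ _ _⟩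
    apply (cancel_mono (pullback.snd U.ι 𝓙.subschemeι)).1
    rw [Category.assoc, pullback.lift_snd, Category.comp_id, Category.id_comp]
  refine ⟨(𝓙.comapIso U.ι).hom ≫ pullback.snd U.ι 𝓙.subschemeι, inferInstance, ?_⟩
  rw [Category.assoc, ← pullback.condition, Scheme.IdealSheafData.comapIso_hom_fst_assoc]

theorem support_pow (𝓘 : X.IdealSheafData) (n : ℕ) : ((𝓘 ^ (n + 1)).support : Set X) = 𝓘.support := by
  rw [Scheme.IdealSheafData.support_pow_succ]

theorem exists_sub_iso (𝓘 : X.IdealSheafData) (U : X.Opens) (hU : (𝓘.support : Set X) ⊆ (U : Set X)) (n : ℕ) :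
    ∃ g : ((𝓘.comap U.ι) ^ (n + 1)).subscheme ⟶ (𝓘 ^ (n + 1)).subscheme, IsIso g ∧
      g ≫ (𝓘 ^ (n + 1)).subschemeι = ((𝓘.comap U.ι) ^ (n + 1)).subschemeι ≫ U.ι := by
  rw [← Divis.IdealComap.comap_pow]
  exact exists_comap_iso _ U (by rw [support_pow]; exact hU)

/-- Pulling back along a composite. -/
theorem nonempty_pullback_comp {A B C : Scheme.{u}} (f : A ⟶ B) (g : B ⟶ C) (h : A ⟶ C) (hh : f ≫ g = h)
    (M : C.Modules) :
    Nonempty ((Scheme.Modules.pullback h).obj M ≅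
      (Scheme.Modules.pullback f).obj ((Scheme.Modules.pullback g).obj M)) := by
  subst hh
  exact ⟨((Scheme.Modules.pullbackComp f g).app M).symm⟩

/-- Trivial kernel of `Pic U → Pic Y_n`. -/
theorem pic_pullback_injective [IsLocallyNoetherian X] (𝓘 : X.IdealSheafData) (h : Lef.LefCond X 𝓘) (p : ℕ)
    (hH1 : ∀ n : ℕ, p ≤ n → Subsingleton (Coh.HH X (kernel (Lef.quotMap (Lef.pow_succ_le 𝓘 n))) 1))
    (U : X.Opens) (hU : (𝓘.support : Set X) ⊆ (U : Set X)) (n : ℕ) (hn : p ≤ n) :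
    Formal2.PicPullbackInjective ((𝓘.comap U.ι) ^ (n + 1)).subschemeι := by
  rintro L hL ⟨e⟩
  obtain ⟨a⟩ := Ega3B.PullTensor.nonempty_pullUnitIso ((𝓘.comap U.ι) ^ (n + 1)).subschemeι
  exact S2948.result X 𝓘 h p hH1 U hU n hn L _ hL (Ega4dA.ParaCrit.structureModule_isInvertible _)
    ⟨e ≪≫ a.symm⟩

/-- Surjectivity of `Pic U → Pic Y_n`. -/
theorem pic_pullback_surjective (𝓘 : X.IdealSheafData) (n : ℕ) (U : X.Opens)
    (hU : (𝓘.support : Set X) ⊆ (U : Set X))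
    (h : Formal2.PicPullbackSurjective (𝓘 ^ (n + 1)).subschemeι) :
    Formal2.PicPullbackSurjective ((𝓘.comap U.ι) ^ (n + 1)).subschemeι := by
  intro N hN
  obtain ⟨g, hg, hgι⟩ := exists_sub_iso 𝓘 U hU n
  obtain ⟨L', hL', ⟨e⟩⟩ := h ((Scheme.Modules.pullback (inv g)).obj N)
    (Sga2.PicThick.isInvertible_pullback _ hN)
  refine ⟨(Scheme.Modules.pullback U.ι).obj L', Sga2.PicThick.isInvertible_pullback _ hL', ?_⟩
  obtain ⟨a⟩ := nonempty_pullback_comp ((𝓘.comap U.ι) ^ (n + 1)).subschemeι U.ι _ hgι.symm L'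
  obtain ⟨b⟩ := nonempty_pullback_comp g (𝓘 ^ (n + 1)).subschemeι _ rfl L'
  obtain ⟨c⟩ := Sga2.PicThick.pullback_pullback_iso g (inv g) (by simp) N
  exact ⟨a.symm ≪≫ b ≪≫ (Scheme.Modules.pullback g).mapIso e ≪≫ c⟩

end Groth.Agent.Sga2lef.H79.PicSub
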